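import Mathlib
import Cfsg.Agent.FGS.FrobeniusCount

/-! Class sizes of prime-power elements of a normal subgroup: counting lemmas. -/

set_option autoImplicit false

namespace Cfsg.Agent.PPC

open Subgroup Cfsg.Agent.FGS

variable {G : Type*} [Group G] [Finite G]

theorem dvd_card_of_conj {d : ℕ} (T : G → Prop) (hT : ∀ g x, T x → T (g * x * g⁻¹))
    (h : ∀ x, T x → d ∣ (centralizer ({x} : Set G)).index) : d ∣ Nat.card {x // T x} := by
  refine FrobCount.dvd_card_of_fibers (fun x : {x // T x} => ConjClasses.mk x.1) fun a => ?_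
  refine (h a.1 a.2).trans (dvd_of_eq ?_)
  rw [← ncard_setOf_isConj, ← Nat.card_coe_set_eq]
  refine Nat.card_congr
    { toFun := fun y => ⟨⟨y.1, ?_⟩, ?_⟩
      invFun := fun y => ⟨y.1.1, (ConjClasses.mk_eq_mk_iff_isConj.1 y.2).symm⟩
      left_inv := fun y => rfl
      right_inv := fun y => rfl }
  · obtain ⟨g, hg⟩ := isConj_iff.1 y.2
    exact hg ▸ hT g _ a.2
  · exact ConjClasses.mk_eq_mk_iff_isConj.2 (IsConj.symm y.2)

theorem card_split (T U : G → Prop) :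
    Nat.card {x // T x} = Nat.card {x // T x ∧ U x} + Nat.card {x // T x ∧ ¬ U x} := by
  classical
  rw [← Nat.card_sum]
  refine Nat.card_congr ((Equiv.sumCompl fun x : {x // T x} => U x.1).symm.trans ?_)
  exact Equiv.sumCongr (Equiv.subtypeSubtypeEquivSubtypeInter _ _)
    (Equiv.subtypeSubtypeEquivSubtypeInter T fun x => ¬ U x)

/-- the centre of `N` inside `G` -/
abbrev zc (N : Subgroup G) : Subgroup G := (center N).map N.subtype

theorem mem_zc {N : Subgroup G} {x : G} : x ∈ zc N ↔ x ∈ N ∧ ∀ y ∈ N, x * y = y * x := by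
  constructor
  · rintro ⟨z, hz, rfl⟩
    exact ⟨z.2, fun y hy => (congrArg Subtype.val (mem_center_iff.1 hz ⟨y, hy⟩)).symm⟩
  · rintro ⟨h1, h2⟩
    exact ⟨⟨x, h1⟩, mem_center_iff.2 fun y => Subtype.ext (h2 y y.2).symm, rfl⟩

theorem card_zc (N : Subgroup G) : Nat.card (zc N) = Nat.card (center N) :=
  card_map_of_injective N.subtype_injective

/-- elements of `Z(N)` killed by `a` -/
def zp (N : Subgroup G) (a : ℕ) : Subgroup G where
  carrier := {x | x ^ a = 1 ∧ x ∈ zc N}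
  one_mem' := ⟨one_pow _, one_mem _⟩
  mul_mem' := by
    rintro x y ⟨h1, h2⟩ ⟨h3, h4⟩
    refine ⟨?_, mul_mem h2 h4⟩
    have : Commute x y := (mem_zc.1 h2).2 y (mem_zc.1 h4).1
    rw [this.mul_pow, h1, h3, one_mul]
  inv_mem' := by
    rintro x ⟨h1, h2⟩
    exact ⟨by rw [inv_pow, h1, inv_one], inv_mem h2⟩

theorem mem_zp {N : Subgroup G} {a : ℕ} {x : G} : x ∈ zp N a ↔ x ^ a = 1 ∧ x ∈ zc N := Iff.rfl

theorem isPrimePow_orderOf {p n : ℕ} (hp : p.Prime) {x : G} (h : x ^ p ^ n = 1) (h1 : x ≠ 1) :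
    IsPrimePow (orderOf x) := by
  obtain ⟨i, -, hi⟩ := (Nat.dvd_prime_pow hp).1 (orderOf_dvd_of_pow_eq_one h)
  rw [hi]
  refine (isPrimePow_nat_iff _).2 ⟨p, i, hp, ?_, rfl⟩
  rcases i with _ | i
  · exact absurd (orderOf_eq_one_iff.1 (by simpa using hi)) h1
  · omega

theorem noncentral {N : Subgroup G} {x : G} (h1 : x ∈ N) (h2 : x ∉ zc N) :
    ∃ y ∈ N, x * y ≠ y * x := by
  by_contra hc
  push Not at hc
  exact h2 (mem_zc.2 ⟨h1, hc⟩)

/-- Step 1: either `d ∣ |Z(N)|` or the Sylow `p`-subgroup of `N` is central. -/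
theorem step_one (N : Subgroup G) [N.Normal] {p k : ℕ} (hp : p.Prime)
    (h : ∀ x : G, x ∈ N → x ∉ zc N → (∃ n, x ^ p ^ n = 1) →
      p ^ k ∣ (centralizer ({x} : Set G)).index) :
    p ^ k ∣ Nat.card (center N) ∨ ¬ p ∣ (center N).index := by
  set n := (Nat.card N).factorization p with hn
  have hF : p ^ n ∣ Nat.card {x : N // x ^ p ^ n = 1} :=
    FrobCount.dvd_card_pow_eq_one (Nat.ordProj_dvd _ _)
  have e1 : Nat.card {x : N // x ^ p ^ n = 1} = Nat.card {x : G // x ∈ N ∧ x ^ p ^ n = 1} := by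
    rw [← Nat.card_congr (Equiv.subtypeSubtypeEquivSubtypeInter (· ∈ N) fun x => x ^ p ^ n = 1)]
    refine Nat.card_congr (Equiv.subtypeEquivRight fun x => ?_)
    rw [Subtype.ext_iff]; simp
  have e2 : Nat.card {x : G // (x ∈ N ∧ x ^ p ^ n = 1) ∧ x ∈ zc N} = Nat.card (zp N (p ^ n)) :=
    Nat.card_congr (Equiv.subtypeEquivRight fun x =>
      ⟨fun h => ⟨h.1.2, h.2⟩, fun h => ⟨⟨(mem_zc.1 h.2).1, h.1⟩, h.2⟩⟩)
  have h2 : p ^ k ∣ Nat.card {x : G // (x ∈ N ∧ x ^ p ^ n = 1) ∧ ¬ x ∈ zc N} := by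
    refine dvd_card_of_conj _ ?_ fun x hx => h x hx.1.1 hx.2 ⟨n, hx.1.2⟩
    rintro g x ⟨⟨h1, h2⟩, h3⟩
    refine ⟨⟨Normal.conj_mem ‹_› x h1 g, by rw [conj_pow, h2]; simp⟩, fun hc => h3 ?_⟩
    have := Normal.conj_mem (inferInstance : (zc N).Normal) _ hc g⁻¹
    simpa [mul_assoc] using this
  rw [e1, card_split _ (· ∈ zc N), e2] at hF
  have h3 : Nat.card (zp N (p ^ n)) ∣ Nat.card (center N) := by
    rw [← card_zc]
    exact card_dvd_of_le fun x hx => hx.2
  rcases le_total k n with hk | hk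
  · left
    exact ((Nat.dvd_add_left h2).1 ((pow_dvd_pow p hk).trans hF)).trans h3
  · right
    have h4 : p ^ n ∣ Nat.card (center N) :=
      ((Nat.dvd_add_left ((pow_dvd_pow p hk).trans h2)).1 hF).trans h3
    intro h5
    have h6 : p ^ (n + 1) ∣ Nat.card N := by
      rw [← (center N).card_mul_index, pow_succ]
      exact mul_dvd_mul h4 h5
    exact Nat.pow_succ_factorization_not_dvd Nat.card_pos.ne' hp h6

/-- Step 2: a `p`-group centralizing a `q`-element modulo `Z(N)` centralizes a `q`-element of the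
same coset. -/
theorem step_two (N : Subgroup G) [N.Normal] {p q c : ℕ} [Fact p.Prime] (hq : q.Prime)
    (hpq : p ≠ q) {P : Subgroup G} (hP : IsPGroup p P) {y : G} (hy : y ∈ N)
    (hyq : y ^ q ^ c = 1) (hc : ∀ u ∈ P, u * y * u⁻¹ * y⁻¹ ∈ zc N) :
    ∃ w ∈ N, w ^ q ^ c = 1 ∧ w * y⁻¹ ∈ zc N ∧ ∀ u ∈ P, u * w * u⁻¹ = w := by
  let Y := {w : G // w ^ q ^ c = 1 ∧ w * y⁻¹ ∈ zc N}
  letI : MulAction P Y :=
    { smul := fun u w => ⟨(u : G) * w * (u : G)⁻¹, by rw [conj_pow, w.2.1]; simp, by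
        have h1 := Normal.conj_mem (inferInstance : (zc N).Normal) _ w.2.2 u
        have h4 := mul_mem h1 (hc u u.2)
        convert h4 using 1
        group⟩
      one_smul := fun w => Subtype.ext (by
        change ((1 : P) : G) * w * ((1 : P) : G)⁻¹ = w
        simp)
      mul_smul := fun u v w => Subtype.ext (by
        change ((u * v : P) : G) * w * ((u * v : P) : G)⁻¹ =
          u * (v * w * (v : G)⁻¹) * (u : G)⁻¹
        simp [mul_assoc]) }
  have hcard : Nat.card Y = Nat.card (zp N (q ^ c)) := by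
    refine Nat.card_congr
      { toFun := fun w => ⟨w.1 * y⁻¹, ?_, w.2.2⟩
        invFun := fun z => ⟨z.1 * y, ?_, by simpa using z.2.2⟩
        left_inv := fun w => Subtype.ext (by simp)
        right_inv := fun w => Subtype.ext (by simp) }
    · have h1 : Commute (w.1 * y⁻¹) y := (mem_zc.1 w.2.2).2 y hy
      have h2 := h1.mul_pow (q ^ c)
      rw [hyq, inv_mul_cancel_right, w.2.1, mul_one] at h2
      exact h2.symm
    · have h1 : Commute z.1 y := (mem_zc.1 z.2.2).2 y hy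
      rw [h1.mul_pow, hyq, z.2.1, one_mul]
  have hQ : IsPGroup q (zp N (q ^ c)) := fun z => ⟨c, Subtype.ext z.2.1⟩
  haveI := Fact.mk hq
  obtain ⟨j, hj⟩ := IsPGroup.iff_card.1 hQ
  have hnd : ¬ p ∣ Nat.card Y := by
    rw [hcard, hj]
    intro h
    exact hpq ((Nat.prime_dvd_prime_iff_eq Fact.out hq).1 ((Fact.out : p.Prime).dvd_of_dvd_pow h))
  obtain ⟨w, hw⟩ := hP.nonempty_fixed_point_of_prime_not_dvd_card Y hnd
  refine ⟨w.1, ?_, w.2.1, w.2.2, fun u hu => congrArg Subtype.val (hw ⟨u, hu⟩)⟩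
  simpa using mul_mem (mem_zc.1 w.2.2).1 hy

end Cfsg.Agent.PPC
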